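import Cfsg.Agent.Lib.Helper41.Bin.OddOrder

/-!
# Binary coset actions of `PSL₂(F)`, `F` of odd order: stabilisers of even order, I
-/

set_option autoImplicit false
set_option linter.unusedVariables false
set_option linter.unusedSimpArgs false
set_option linter.style.haveILetI false
set_option linter.unusedSectionVars false

namespace Cfsg.Agent.Lib.Helper41.Bin

open Cfsg.Agent.Lib.Helper37.Bin Cfsg.Agent.Lib.Helper41.Dickson Matrix

theorem invol_unique_zpowers {G : Type*} [Group G] [Finite G] (c t s : G)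
    (ht : t ∈ Subgroup.zpowers c) (hs : s ∈ Subgroup.zpowers c) (ot : orderOf t = 2)
    (os : orderOf s = 2) : t = s := by
  classical
  by_contra hne
  haveI : Fintype (Subgroup.zpowers c) := Fintype.ofFinite _
  have h1 := IsCyclic.card_pow_eq_one_le (α := Subgroup.zpowers c) (n := 2) (by norm_num)
  have ht2 : t ^ 2 = 1 := by rw [← ot, pow_orderOf_eq_one]
  have hs2 : s ^ 2 = 1 := by rw [← os, pow_orderOf_eq_one]
  have ht1 : t ≠ 1 := by
    rintro rfl
    rw [orderOf_one] at ot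
    norm_num at ot
  have hs1 : s ≠ 1 := by
    rintro rfl
    rw [orderOf_one] at os
    norm_num at os
  have hsub : ({1, ⟨t, ht⟩, ⟨s, hs⟩} : Finset (Subgroup.zpowers c)) ⊆
      Finset.univ.filter (fun a => a ^ 2 = 1) := by
    intro a ha
    simp only [Finset.mem_insert, Finset.mem_singleton] at ha
    simp only [Finset.mem_filter, Finset.mem_univ, true_and]
    rcases ha with rfl | rfl | rfl
    · simp
    · exact Subtype.ext ht2
    · exact Subtype.ext hs2
  have h3 : ({1, ⟨t, ht⟩, ⟨s, hs⟩} : Finset (Subgroup.zpowers c)).card = 3 := by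
    apply Finset.card_eq_three.2
    refine ⟨_, _, _, ?_, ?_, ?_, rfl⟩
    · intro h
      exact ht1 (congrArg Subtype.val h).symm
    · intro h
      exact hs1 (congrArg Subtype.val h).symm
    · intro h
      exact hne (congrArg Subtype.val h)
  have := Finset.card_le_card hsub
  omega

variable {F : Type*} [Field F] [Fintype F]

local notation "SL2" => Matrix.SpecialLinearGroup (Fin 2) F
local notation "PSL2" => Matrix.ProjectiveSpecialLinearGroup (Fin 2) F

theorem char_ne_two (p : ℕ) [CharP F p] (h2 : (2 : F) ≠ 0) : p ≠ 2 := by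
  rintro rfl
  apply h2
  exact_mod_cast CharP.cast_eq_zero F 2

theorem dih_in (p : ℕ) [Fact p.Prime] [CharP F p] (h2 : (2 : F) ≠ 0) (h7 : 7 ≤ Fintype.card F)
    (H : Subgroup PSL2) (hbin : IsBin' H) {t : PSL2} (htH : t ∈ H) (ht : orderOf t = 2) :
    ∃ (k : ℕ) (r σ : PSL2), r ∈ H ∧ σ ∈ H ∧ orderOf r = k ∧ 4 ≤ k ∧ Even k ∧
      (2 * k = Fintype.card F - 1 ∨ 2 * k = Fintype.card F + 1) ∧ t ∈ Subgroup.zpowers r ∧
      orderOf σ = 2 ∧ σ * r * σ⁻¹ = r⁻¹ ∧ σ ≠ t := by
  have hp := (Fact.out : p.Prime)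
  have hp2 := char_ne_two (F := F) p h2
  have hqodd := card_mod_two_of_two_ne_zero h2
  have hgcd : Nat.gcd 2 (Fintype.card F - 1) = 2 := Nat.gcd_eq_left ⟨(Fintype.card F - 1) / 2, by omega⟩
  have htp : t ^ p ≠ 1 := by
    intro h
    have := orderOf_dvd_of_pow_eq_one h
    rw [ht] at this
    exact hp2 ((Nat.prime_dvd_prime_iff_eq Nat.prime_two hp).1 this).symm
  obtain ⟨N, k, r, hk, ⟨e⟩, hrN, hrk, htr, -⟩ := torus_package p t htp
  rw [hgcd] at hk
  have hk2 : 2 ∣ k := by
    rw [← ht, ← hrk]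
    exact orderOf_dvd_of_mem_zpowers htr
  have hk4 : 4 ≤ k := by
    obtain ⟨c, rfl⟩ := hk2
    omega
  have htN : t ∈ N := (Subgroup.zpowers_le.2 hrN) htr
  obtain ⟨i, hi⟩ : ∃ i, e ⟨r, hrN⟩ = DihedralGroup.r i := by
    cases h : e ⟨r, hrN⟩ with
    | r i => exact ⟨i, rfl⟩
    | sr i =>
      exfalso
      have h1 : orderOf (e ⟨r, hrN⟩) = k := by
        rw [MulEquiv.orderOf_eq, Subgroup.orderOf_mk, hrk]
      rw [h, DihedralGroup.orderOf_sr] at h1
      omega
  obtain ⟨j, hj⟩ := Subgroup.mem_zpowers_iff.1 htr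
  have het : e ⟨t, htN⟩ = DihedralGroup.r (i * (j : ZMod k)) := by
    have : (⟨t, htN⟩ : N) = ⟨r, hrN⟩ ^ j := Subtype.ext (by simpa using hj.symm)
    rw [this, map_zpow, hi, DihedralGroup.r_zpow]
  set b : ZMod k := i * (j : ZMod k) with hb
  have hbb : b + b = 0 := by
    have h1 : (⟨t, htN⟩ : N) * ⟨t, htN⟩ = 1 := by
      apply Subtype.ext
      have := pow_orderOf_eq_one t
      rw [ht, pow_two] at this
      exact this
    have h3 := congrArg e h1
    rw [map_mul, het, DihedralGroup.r_mul_r, map_one, DihedralGroup.one_def] at h3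
    exact DihedralGroup.r.inj h3
  have hσ : ∀ a : ZMod k, ((e.symm (DihedralGroup.sr a) : N) : PSL2) ∈ H ∧
      orderOf ((e.symm (DihedralGroup.sr a) : N) : PSL2) = 2 ∧
      ((e.symm (DihedralGroup.sr a) : N) : PSL2) ≠ t := by
    intro a
    have ho : orderOf ((e.symm (DihedralGroup.sr a) : N) : PSL2) = 2 := by
      rw [Subgroup.orderOf_coe, MulEquiv.orderOf_eq, DihedralGroup.orderOf_sr]
    have hne : ((e.symm (DihedralGroup.sr a) : N) : PSL2) ≠ t := by
      intro h
      have h1 : e.symm (DihedralGroup.sr a) = ⟨t, htN⟩ := Subtype.ext h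
      have h3 := congrArg e h1
      rw [e.apply_symm_apply, het] at h3
      cases h3
    have hc : t * ((e.symm (DihedralGroup.sr a) : N) : PSL2) =
        ((e.symm (DihedralGroup.sr a) : N) : PSL2) * t := by
      have h1 : (⟨t, htN⟩ : N) * e.symm (DihedralGroup.sr a) =
          e.symm (DihedralGroup.sr a) * ⟨t, htN⟩ := by
        apply e.injective
        rw [map_mul, map_mul, e.apply_symm_apply, het, DihedralGroup.r_mul_sr,
          DihedralGroup.sr_mul_r]
        congr 1
        linear_combination (-1 : ZMod k) * hbb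
      exact congrArg Subtype.val h1
    exact ⟨invol_mem_of_bin (invol_conj_odd h2) H hbin ht ho (Ne.symm hne) hc htH, ho, hne⟩
  refine ⟨k, r, ((e.symm (DihedralGroup.sr 0) : N) : PSL2), ?_, (hσ 0).1, hrk, hk4,
    even_iff_two_dvd.2 hk2, hk, htr, (hσ 0).2.1, ?_, (hσ 0).2.2⟩
  · have h1 : (⟨r, hrN⟩ : N) = e.symm (DihedralGroup.sr 0) * e.symm (DihedralGroup.sr i) := by
      apply e.injective
      rw [map_mul, e.apply_symm_apply, e.apply_symm_apply, hi, DihedralGroup.sr_mul_sr, sub_zero]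
    have h3 := congrArg Subtype.val h1
    simp only [Subgroup.coe_mul] at h3
    rw [h3]
    exact H.mul_mem (hσ 0).1 (hσ i).1
  · have h1 : e.symm (DihedralGroup.sr 0) * (⟨r, hrN⟩ : N) * (e.symm (DihedralGroup.sr 0))⁻¹ =
        (⟨r, hrN⟩ : N)⁻¹ := by
      apply e.injective
      rw [map_mul, map_mul, map_inv, map_inv, e.apply_symm_apply, hi, DihedralGroup.sr_mul_r,
        DihedralGroup.inv_sr, DihedralGroup.sr_mul_sr, DihedralGroup.inv_r]
      congr 1
      ring
    exact congrArg Subtype.val h1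

theorem perm4_no : ∀ ρ : Equiv.Perm (Fin 4), ∀ j : Fin 4, ρ ^ 4 = 1 → ρ ^ 2 ≠ 1 →
    ρ ^ (j : ℕ) ≠ Equiv.swap 0 1 := by decide +kernel

theorem s4_excl {G : Type*} [Group G] [Finite G] (H : Subgroup G) (e : H ≃* Equiv.Perm (Fin 4))
    (hdih : ∀ t ∈ H, orderOf t = 2 → ∃ r ∈ H, 4 ≤ orderOf r ∧ t ∈ Subgroup.zpowers r) : False := by
  classical
  set t₀ : H := e.symm (Equiv.swap 0 1) with ht₀
  have ho : orderOf (t₀ : G) = 2 := by
    rw [Subgroup.orderOf_coe, ht₀, MulEquiv.orderOf_eq]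
    exact orderOf_eq_prime (by decide) (by decide)
  obtain ⟨r, hrH, hr4, htr⟩ := hdih t₀ t₀.2 ho
  set ρ := e ⟨r, hrH⟩ with hρ
  have hoρ : orderOf ρ = orderOf r := by rw [hρ, MulEquiv.orderOf_eq, Subgroup.orderOf_mk]
  have h2 : ρ ^ 2 ≠ 1 := by
    intro h
    have := orderOf_le_of_pow_eq_one (by norm_num) h
    omega
  have h3 : ρ ^ 3 ≠ 1 := by
    intro h
    have := orderOf_le_of_pow_eq_one (by norm_num) h
    omega
  have h4 : ρ ^ 4 = 1 := by
    rcases perm4_orders ρ with h | h | h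
    · exact absurd h h2
    · exact absurd h h3
    · exact h
  have hord : orderOf r = 4 := by
    have := orderOf_le_of_pow_eq_one (by norm_num) h4
    omega
  rw [← mem_powers_iff_mem_zpowers, mem_powers_iff_mem_range_orderOf, hord] at htr
  simp only [Finset.mem_image, Finset.mem_range] at htr
  obtain ⟨n, hn, hrn⟩ := htr
  apply perm4_no ρ ⟨n, hn⟩ h4 h2
  have h5 : (⟨r, hrH⟩ : H) ^ n = t₀ := Subtype.ext (by simpa using hrn)
  have h6 := congrArg e h5
  rw [map_pow, ht₀, e.apply_symm_apply] at h6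
  exact h6

end Cfsg.Agent.Lib.Helper41.Bin
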