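import Cfsg.Agent.Lib.Helper41.Bin.DihIn
import Cfsg.Agent.Lib.Helper41.Dickson.MaxOddS4

/-!
# Binary coset actions of `PSL₂(F)`, `F` of odd order: stabilisers of even order, II
-/

set_option autoImplicit false
set_option linter.unusedVariables false
set_option linter.unusedSimpArgs false
set_option linter.style.haveILetI false
set_option linter.unusedSectionVars false

namespace Cfsg.Agent.Lib.Helper41.Bin

open Cfsg.Agent.Lib.Helper37.Bin Cfsg.Agent.Lib.Helper41.Dickson Matrix

variable {F : Type*} [Field F] [Fintype F]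

local notation "SL2" => Matrix.SpecialLinearGroup (Fin 2) F
local notation "PSL2" => Matrix.ProjectiveSpecialLinearGroup (Fin 2) F

theorem not_bin_even_order (p : ℕ) [Fact p.Prime] [CharP F p] (h2 : (2 : F) ≠ 0)
    (h7 : 7 ≤ Fintype.card F) (H : Subgroup PSL2) (hH : H ≠ ⊤) (heven : 2 ∣ Nat.card H) :
    ¬ IsBin' H := by
  intro hbin
  have hp := (Fact.out : p.Prime)
  have hp2 := char_ne_two (F := F) p h2
  have hqodd := card_mod_two_of_two_ne_zero h2
  haveI : Fact (Nat.Prime 2) := ⟨Nat.prime_two⟩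
  obtain ⟨⟨t, htH⟩, hto⟩ := exists_prime_orderOf_dvd_card' (G := H) 2 heven
  have ht : orderOf t = 2 := by rw [Subgroup.orderOf_mk] at hto; exact hto
  obtain ⟨k, r, σ, hrH, hσH, hrk, hk4, hke, hk, htr, hσ2, hσr, hσt⟩ := dih_in p h2 h7 H hbin htH ht
  obtain ⟨k', r', -, hrH', -, hrk', hk4', -, -, htr', -, -, -⟩ := dih_in p h2 h7 H hbin hσH hσ2
  have hdih : ∀ t ∈ H, orderOf t = 2 → ∃ r ∈ H, 4 ≤ orderOf r ∧ t ∈ Subgroup.zpowers r := by
    intro t' ht' ho'
    obtain ⟨k, r, -, hrH, -, hrk, hk4, -, -, htr, -⟩ := dih_in p h2 h7 H hbin ht' ho'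
    exact ⟨r, hrH, by rw [hrk]; exact hk4, htr⟩
  have hrp : r ^ p ≠ 1 := by
    intro h
    have h1 := orderOf_dvd_of_pow_eq_one h
    rw [hrk] at h1
    rcases (Nat.dvd_prime hp).1 h1 with h3 | h3
    · omega
    · rw [h3] at hke
      exact hp2 ((Nat.Prime.even_iff hp).1 hke)
  have hpq := char_dvd_card (F := F) p
  rcases dickson_proper p H hH r hrH hrp with ⟨hc, -⟩ | ⟨m, -, ⟨e⟩, hm⟩ | ⟨P, hP⟩ | ⟨-, -, ho⟩ |
    ⟨⟨e⟩, -, -⟩ | ⟨-, -, ho⟩ | ⟨K, m, hm, hqm, hK2, hK⟩
  · -- cyclic
    obtain ⟨⟨g, hg⟩, hgen⟩ := hc.exists_generator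
    have hz : ∀ x ∈ H, x ∈ Subgroup.zpowers g := by
      intro x hx
      obtain ⟨n, hn⟩ := Subgroup.mem_zpowers_iff.1 (hgen ⟨x, hx⟩)
      exact ⟨n, by simpa using congrArg Subtype.val hn⟩
    exact hσt (invol_unique_zpowers g σ t (hz σ hσH) (hz t htH) hσ2 ht)
  · -- dihedral
    haveI : Finite (DihedralGroup m) := Finite.of_equiv _ e.toEquiv
    have hrot : ∀ x (hx : x ∈ H), 4 ≤ orderOf x → ∀ y (hy : y ∈ H), y ∈ Subgroup.zpowers x →
        e ⟨y, hy⟩ ∈ Subgroup.zpowers (DihedralGroup.r (1 : ZMod m)) := by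
      intro x hx h4 y hy hyx
      obtain ⟨i, hi⟩ : ∃ i, e ⟨x, hx⟩ = DihedralGroup.r i := by
        cases h : e ⟨x, hx⟩ with
        | r i => exact ⟨i, rfl⟩
        | sr i =>
          exfalso
          have h1 : orderOf (e ⟨x, hx⟩) = orderOf x := by
            rw [MulEquiv.orderOf_eq, Subgroup.orderOf_mk]
          rw [h, DihedralGroup.orderOf_sr] at h1
          omega
      obtain ⟨j, hj⟩ := Subgroup.mem_zpowers_iff.1 hyx
      have : (⟨y, hy⟩ : H) = ⟨x, hx⟩ ^ j := Subtype.ext (by simpa using hj.symm)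
      rw [this, map_zpow, hi, DihedralGroup.r_zpow]
      obtain ⟨n, hn⟩ := ZMod.intCast_surjective (i * (j : ZMod m))
      rw [← hn, ← DihedralGroup.r_one_zpow]
      exact Subgroup.zpow_mem_zpowers _ _
    have h1 := hrot r hrH (by rw [hrk]; exact hk4) t htH htr
    have h3 := hrot r' hrH' (by rw [hrk']; exact hk4') σ hσH htr'
    have h4 := invol_unique_zpowers _ _ _ h1 h3
      (by rw [MulEquiv.orderOf_eq, Subgroup.orderOf_mk, ht])
      (by rw [MulEquiv.orderOf_eq, Subgroup.orderOf_mk, hσ2])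
    have h5 := e.injective h4
    exact hσt (congrArg Subtype.val h5).symm
  · -- Borel
    obtain ⟨-, -, -, h4, -, h6⟩ := borel_package p P
    have hc := h6 _ (h4 σ (hP hσH) r (hP hrH))
    rw [hσr] at hc
    have h1 : r ^ (2 * p) = 1 := by
      have : (r⁻¹ * r⁻¹) ^ p = (r ^ (2 * p))⁻¹ := by
        rw [← _root_.mul_inv_rev, inv_pow, ← pow_two, ← pow_mul]
      rw [this, inv_eq_one] at hc
      exact hc
    have h3 := orderOf_dvd_of_pow_eq_one h1
    rw [hrk] at h3
    obtain ⟨c, rfl⟩ := hke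
    have h5 : c ∣ p := by
      have : 2 * c ∣ 2 * p := by rwa [← two_mul] at h3
      exact Nat.dvd_of_mul_dvd_mul_left (by norm_num) this
    rcases (Nat.dvd_prime hp).1 h5 with h | h
    · omega
    · subst h
      obtain ⟨d, hd⟩ := hpq
      have hc2 : 2 ≤ c := hp.two_le
      rcases hk with hk | hk
      · have : c * d = 4 * c + 1 := by omega
        have h8 : c ∣ 1 := by
          have h9 : c ∣ 4 * c + 1 := by rw [← this]; exact Dvd.intro _ rfl
          exact (Nat.dvd_add_right (Dvd.intro_left _ rfl)).1 h9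
        have := Nat.le_of_dvd (by norm_num) h8
        omega
      · have : c * d + 1 = 4 * c := by omega
        have h8 : c ∣ 1 := by
          have h9 : c ∣ c * d + 1 := by rw [this]; exact Dvd.intro_left _ rfl
          exact (Nat.dvd_add_right (Dvd.intro _ rfl)).1 h9
        have := Nat.le_of_dvd (by norm_num) h8
        omega
  · -- A4
    rw [hrk] at ho
    rcases ho with ho | ho <;> have := Nat.le_of_dvd (by norm_num) ho <;> omega
  · -- S4
    exact s4_excl H e hdih
  · -- A5
    rw [hrk] at ho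
    rcases ho with ho | ho | ho
    · have := Nat.le_of_dvd (by norm_num) ho; omega
    · have := Nat.le_of_dvd (by norm_num) ho; omega
    · rcases (Nat.dvd_prime Nat.prime_five).1 ho with h | h
      · omega
      · rw [h] at hke
        revert hke; decide
  · -- subfield subgroups
    have hgcd : Nat.gcd 2 (Fintype.card F - 1) = 2 :=
      Nat.gcd_eq_left ⟨(Fintype.card F - 1) / 2, by omega⟩
    have hsq : Nat.card K ^ 2 ≤ Fintype.card F := by
      rw [hqm]; exact Nat.pow_le_pow_right (by omega) hm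
    have hKodd : Nat.card K ≠ 2 := by
      intro h
      rw [h] at hqm
      have : Even (Fintype.card F) := by rw [hqm]; exact even_two.pow_of_ne_zero (by omega)
      rw [Nat.even_iff] at this
      omega
    rw [hrk] at hK
    rcases hK with ⟨-, -, ho⟩ | ⟨⟨e⟩, -, ho⟩
    · rw [hgcd] at ho
      have hle : 2 * k ≤ Nat.card K + 1 := by
        rcases ho with ho | ho
        · have := Nat.le_of_dvd (by omega) ho; omega
        · exact Nat.le_of_dvd (by omega) ho
      have : Nat.card K ^ 2 ≤ Nat.card K + 2 := by omega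
      have h3 : Nat.card K < 3 := by
        by_contra hcon
        push Not at hcon
        nlinarith
      omega
    · have hle : k ≤ Nat.card K + 1 := by
        rcases ho with ho | ho
        · have := Nat.le_of_dvd (by omega) ho; omega
        · exact Nat.le_of_dvd (by omega) ho
      have : Nat.card K ^ 2 ≤ 2 * Nat.card K + 3 := by omega
      have h3 : Nat.card K < 4 := by
        by_contra hcon
        push Not at hcon
        nlinarith
      have hK3 : Nat.card K = 3 := by omega
      haveI : Fintype K := Fintype.ofFinite K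
      obtain ⟨e'⟩ := pgl2_three K (by rw [← Nat.card_eq_fintype_card]; exact hK3)
      exact s4_excl H (e.trans e') hdih

end Cfsg.Agent.Lib.Helper41.Bin
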