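import Cfsg.Agent.Lib.Helper41.Bin.EvenOrder

/-!
# Binary coset actions of `PSL₂(F)`: the main theorem
-/

set_option autoImplicit false
set_option linter.unusedVariables false
set_option linter.unusedSimpArgs false
set_option linter.style.haveILetI false
set_option linter.unusedSectionVars false

namespace Cfsg.Agent.Lib.Helper41.Bin

open Cfsg.Agent.Lib.Helper37.Bin Cfsg.Agent.Lib.Helper41.Dickson Matrix

variable {F : Type*} [Field F] [Fintype F]

local notation "SL2" => Matrix.SpecialLinearGroup (Fin 2) F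
local notation "PSL2" => Matrix.ProjectiveSpecialLinearGroup (Fin 2) F

theorem negOne_eq_one (h2 : (2 : F) = 0) : (negOne : SL2) = 1 := by
  apply sl2_ext <;> simp only [negOne, mkS00, mkS01, mkS10, mkS11, one00, one01, one10, one11] <;>
    grind

theorem pr_injective (h2 : (2 : F) = 0) : Function.Injective (pr F) := by
  intro X Y h
  rcases (pr_eq_iff X Y).1 h with h | h
  · exact h
  · rwa [negOne_eq_one h2, one_mul] at h

theorem card_comap (h2 : (2 : F) = 0) (H : Subgroup PSL2) :
    Nat.card (H.comap (pr F)) = Nat.card H := by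
  apply Nat.card_congr
  refine Equiv.ofBijective (fun k => (⟨pr F k.1, k.2⟩ : H)) ⟨?_, ?_⟩
  · intro a b h
    exact Subtype.ext (pr_injective h2 (congrArg Subtype.val h))
  · rintro ⟨h, hh⟩
    obtain ⟨X, rfl⟩ := pr_surj h
    exact ⟨⟨X, hh⟩, rfl⟩

theorem bin_iff_even (h2 : (2 : F) = 0) (H : Subgroup PSL2) (hH : H ≠ ⊤) :
    IsBin' H ↔ (H = ⊥ ∨ ((∃ a : ℕ, Fintype.card F = 2 ^ a) ∧ ∃ P : Sylow 2 PSL2, H = P) ∨
        ((∃ a : ℕ, Odd a ∧ Fintype.card F = 2 ^ a) ∧ Nat.card H = 3)) := by
  haveI : Fact (Nat.Prime 2) := ⟨Nat.prime_two⟩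
  haveI : CharP F 2 := by
    obtain ⟨p, hp, hchar⟩ := exists_char_prime F
    have : p ∣ 2 := (CharP.cast_eq_zero_iff F p 2).1 (by exact_mod_cast h2)
    have h := (Nat.prime_dvd_prime_iff_eq hp Nat.prime_two).1 this
    subst h
    exact hchar
  obtain ⟨a, -, ha⟩ := FiniteField.card F 2
  set K := H.comap (pr F) with hK
  have hcard : Nat.card K = Nat.card H := card_comap h2 H
  rw [← isBin'_comap_iff (pr F) pr_surj H, ← hK]
  constructor
  · intro hbin
    by_cases hbot : H = ⊥
    · exact Or.inl hbot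
    right
    have hKtop : K ≠ ⊤ := by
      intro h
      apply hH
      rw [eq_top_iff]
      intro x _
      obtain ⟨X, rfl⟩ := pr_surj x
      have : X ∈ K := by rw [h]; trivial
      exact this
    have hKbot : K ≠ ⊥ := by
      intro h
      apply hbot
      rw [Subgroup.eq_bot_iff_forall]
      intro x hx
      obtain ⟨X, rfl⟩ := pr_surj x
      have : X ∈ K := hx
      rw [h, Subgroup.mem_bot] at this
      rw [this, map_one]
    rcases Nat.even_or_odd (Nat.card H) with heven | hodd
    · left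
      refine ⟨⟨a, ha⟩, ?_⟩
      obtain ⟨⟨t, htH⟩, hto⟩ := exists_prime_orderOf_dvd_card' (G := H) 2 heven.two_dvd
      rw [Subgroup.orderOf_mk] at hto
      obtain ⟨X, rfl⟩ := pr_surj t
      have hXX : X * X = 1 := by
        apply pr_injective h2
        have := pow_orderOf_eq_one (pr F X)
        rw [hto, pow_two] at this
        rw [map_mul, this, map_one]
      have hX1 : X ≠ 1 := by
        rintro rfl
        rw [map_one, orderOf_one] at hto
        norm_num at hto
      have hc := card_of_bin_even h2 K hKtop hbin (t := X) htH hXX hX1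
      rw [hcard, Nat.card_eq_fintype_card (α := F)] at hc
      have hpg : IsPGroup 2 H := IsPGroup.of_card (n := a) (by rw [hc, ha])
      obtain ⟨Q, hQ⟩ := hpg.exists_le_sylow
      refine ⟨Q, ?_⟩
      apply Subgroup.eq_of_le_of_card_ge hQ
      rw [hc]
      exact (borel_package 2 Q).2.1.le
    · right
      rcases odd_cases 2 H hodd with ⟨-, hab⟩ | ⟨h, -⟩
      · have habK := comap_abelian H hab hodd
        have hodd' : ∀ k ∈ K, k * k = 1 → k = 1 := by
          intro k hk hkk
          apply pr_injective h2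
          rw [map_one]
          have h1 : (pr F k) ^ 2 = 1 := by rw [pow_two, ← map_mul, hkk, map_one]
          have h3 := orderOf_dvd_of_pow_eq_one h1
          have h4 : orderOf (pr F k) ∣ Nat.card H := by
            have := orderOf_dvd_natCard (⟨_, hk⟩ : H)
            rwa [← Subgroup.orderOf_coe] at this
          rcases (Nat.dvd_prime Nat.prime_two).1 h3 with h | h
          · exact orderOf_eq_one_iff.1 h
          · rw [h] at h4
            exact absurd (even_iff_two_dvd.2 h4) (Nat.not_even_iff_odd.2 hodd)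
        obtain ⟨h1, h3⟩ := three_of_bin_odd h2 a ha K habK hodd' hKbot hbin
        exact ⟨⟨a, h1, ha⟩, by rw [← hcard]; exact h3⟩
      · exact absurd (even_iff_two_dvd.2 h) (Nat.not_even_iff_odd.2 hodd)
  · rintro (h | ⟨-, P, hP⟩ | ⟨⟨b, hb, hFb⟩, h3⟩)
    · rw [hK, isBin'_comap_iff (pr F) pr_surj H, h]
      exact isBin'_bot
    · apply isBin'_of_card h2 a (by rw [Nat.card_eq_fintype_card]; exact ha)
      rw [hcard, hP, Nat.card_eq_fintype_card (α := F)]
      exact (borel_package 2 P).2.1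
    · exact isBin'_three h2 (no_omega_of_odd h2 b hb hFb) K (by rw [hcard]; exact h3)

theorem bin_iff_odd (h2 : (2 : F) ≠ 0) (h4 : 4 ≤ Fintype.card F) (h5 : Fintype.card F ≠ 5)
    (H : Subgroup PSL2) (hH : H ≠ ⊤) :
    IsBin' H ↔ (H = ⊥ ∨ ((∃ a : ℕ, Fintype.card F = 2 ^ a) ∧ ∃ P : Sylow 2 PSL2, H = P) ∨
        ((∃ a : ℕ, Odd a ∧ Fintype.card F = 2 ^ a) ∧ Nat.card H = 3)) := by
  obtain ⟨p, hp, hchar⟩ := exists_char_prime F
  haveI : Fact p.Prime := ⟨hp⟩
  haveI := hchar
  have hqodd := card_mod_two_of_two_ne_zero h2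
  have hno : ∀ a : ℕ, Fintype.card F ≠ 2 ^ a := by
    intro a ha
    rcases Nat.eq_zero_or_pos a with rfl | h
    · simp at ha; omega
    · have : Even (Fintype.card F) := by rw [ha]; exact even_two.pow_of_ne_zero (by omega)
      rw [Nat.even_iff] at this
      omega
  constructor
  · intro hbin
    left
    by_contra hbot
    rcases Nat.even_or_odd (Nat.card H) with heven | hodd
    · exact not_bin_even_order p h2 (by omega) H hH heven.two_dvd hbin
    · exact not_bin_odd_order p h2 H hbot hodd hbin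
  · rintro (h | ⟨⟨a, ha⟩, -⟩ | ⟨⟨a, -, ha⟩, -⟩)
    · rw [h]; exact isBin'_bot
    · exact absurd ha (hno a)
    · exact absurd ha (hno a)

theorem bin_iff (h4 : 4 ≤ Fintype.card F) (h5 : Fintype.card F ≠ 5)
    (H : Subgroup PSL2) (hH : H ≠ ⊤) :
    IsBin H ↔ (H = ⊥ ∨ ((∃ a : ℕ, Fintype.card F = 2 ^ a) ∧ ∃ P : Sylow 2 PSL2, H = P) ∨
        ((∃ a : ℕ, Odd a ∧ Fintype.card F = 2 ^ a) ∧ Nat.card H = 3)) := by
  rw [isBin_iff]
  by_cases h2 : (2 : F) = 0
  · exact bin_iff_even h2 H hH
  · exact bin_iff_odd h2 h4 h5 H hH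

end Cfsg.Agent.Lib.Helper41.Bin
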