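import Cfsg.Agent.Lib.Helper41.Bin.PSL

/-!
# Binary coset actions of `PSL₂(F)`: stabilisers of odd order
-/

set_option autoImplicit false
set_option linter.unusedVariables false
set_option linter.unusedSimpArgs false
set_option linter.style.haveILetI false
set_option linter.unusedSectionVars false

namespace Cfsg.Agent.Lib.Helper41.Bin

open Cfsg.Agent.Lib.Helper37.Bin Cfsg.Agent.Lib.Helper41.Dickson Matrix

variable {F : Type*} [Field F] [Fintype F]

local notation "SL2" => Matrix.SpecialLinearGroup (Fin 2) F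
local notation "PSL2" => Matrix.ProjectiveSpecialLinearGroup (Fin 2) F

theorem even_of_subfield_card {q q₀ m h d : ℕ} (hd : d = Nat.gcd 2 (q - 1)) (hm : 1 ≤ m)
    (hq : q = q₀ ^ m) (h2 : 2 ≤ q₀) (hh : d * h = q₀ * (q₀ ^ 2 - 1)) : Even h := by
  rcases Nat.even_or_odd q₀ with he | ho
  · have hqe : Even q := by rw [hq]; exact he.pow_of_ne_zero (by omega)
    have hq1 : 1 ≤ q := by rw [hq]; exact Nat.one_le_pow _ _ (by omega)
    have hd1 : d = 1 := by
      rw [hd]
      obtain ⟨c, hc⟩ := hqe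
      have : Nat.Coprime 2 (q - 1) := by
        rw [Nat.coprime_two_left]
        exact ⟨c - 1, by omega⟩
      exact this
    rw [hd1, one_mul] at hh
    rw [hh]
    exact he.mul_right _
  · obtain ⟨j, rfl⟩ := ho
    have e1 : (2 * j + 1) ^ 2 - 1 = 4 * (j * (j + 1)) := by
      have : (2 * j + 1) ^ 2 = 4 * (j * (j + 1)) + 1 := by ring
      rw [this, Nat.add_sub_cancel]
    obtain ⟨c, hc⟩ := Nat.even_mul_succ_self j
    rw [e1, hc] at hh
    have hd2 : d ∣ 2 := by rw [hd]; exact Nat.gcd_dvd_left _ _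
    rcases (Nat.dvd_prime Nat.prime_two).1 hd2 with h1 | h1
    · rw [h1, one_mul] at hh
      rw [hh]
      exact ⟨(2 * j + 1) * (4 * c), by ring⟩
    · rw [h1] at hh
      have : h = (2 * j + 1) * (4 * c) := by
        have : 2 * h = 2 * ((2 * j + 1) * (4 * c)) := by rw [hh]; ring
        omega
      rw [this]
      exact ⟨(2 * j + 1) * (2 * c), by ring⟩

theorem char_dvd_card (p : ℕ) [Fact p.Prime] [CharP F p] : p ∣ Fintype.card F := by
  obtain ⟨n, -, hn⟩ := FiniteField.card F p
  rw [hn]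
  exact dvd_pow_self p n.ne_zero

/-- subgroups of odd order -/
theorem odd_cases (p : ℕ) [Fact p.Prime] [CharP F p] (H : Subgroup PSL2) (hodd : Odd (Nat.card H)) :
    (¬ p ∣ Nat.card H ∧ ∀ a ∈ H, ∀ b ∈ H, a * b = b * a) ∨
    (p ∣ Nat.card H ∧ ∃ P : Sylow p PSL2, H ≤ Subgroup.normalizer ((P : Subgroup PSL2) : Set PSL2)) := by
  have hne : ¬ Even (Nat.card H) := Nat.not_even_iff_odd.2 hodd
  have hp := (Fact.out : p.Prime)
  rcases dickson_card p H with ⟨hc, hd⟩ | ⟨k, -, -, hk⟩ | ⟨P, hP⟩ | ⟨-, h⟩ | ⟨-, h⟩ | ⟨-, h⟩ |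
    ⟨K, m, hm, hqm, hK2, hK⟩
  · left
    constructor
    · intro hpH
      have hpq := char_dvd_card (F := F) p
      have hq1 : 1 ≤ Fintype.card F := Fintype.card_pos
      rcases hd with hd | hd
      · have h1 : p ∣ Fintype.card F - 1 := (hpH.trans (Dvd.intro_left _ rfl)).trans hd
        have h3 : p ∣ 1 := by
          have := (Nat.dvd_sub hpq h1)
          have e : Fintype.card F - (Fintype.card F - 1) = 1 := by omega
          rwa [e] at this
        exact hp.one_lt.ne' (Nat.dvd_one.1 h3)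
      · have h1 : p ∣ Fintype.card F + 1 := (hpH.trans (Dvd.intro_left _ rfl)).trans hd
        have h3 : p ∣ 1 := (Nat.dvd_add_right hpq).1 h1
        exact hp.one_lt.ne' (Nat.dvd_one.1 h3)
    · intro a ha b hb
      have := (IsCyclic.isMulCommutative (α := H)).is_comm.comm ⟨a, ha⟩ ⟨b, hb⟩
      exact congrArg Subtype.val this
  · exact absurd ⟨k, by rw [hk]; ring⟩ hne
  · by_cases hpH : p ∣ Nat.card H
    · exact Or.inr ⟨hpH, P, hP⟩
    · left
      refine ⟨hpH, ?_⟩
      obtain ⟨-, -, -, h4, -, h6⟩ := borel_package p P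
      intro a ha b hb
      have hc := h4 a (hP ha) b (hP hb)
      have hcH : a * b * a⁻¹ * b⁻¹ ∈ H := H.mul_mem (H.mul_mem (H.mul_mem ha hb) (H.inv_mem ha)) (H.inv_mem hb)
      have h1 : orderOf (a * b * a⁻¹ * b⁻¹) ∣ p := orderOf_dvd_of_pow_eq_one (h6 _ hc)
      have h2 : orderOf (a * b * a⁻¹ * b⁻¹) ∣ Nat.card H := by
        have := orderOf_dvd_natCard (⟨_, hcH⟩ : H)
        rwa [← Subgroup.orderOf_coe] at this
      have h3 : orderOf (a * b * a⁻¹ * b⁻¹) = 1 := by
        rcases (Nat.dvd_prime hp).1 h1 with h | h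
        · exact h
        · rw [h] at h2; exact absurd h2 hpH
      rw [orderOf_eq_one_iff] at h3
      calc a * b = (a * b * a⁻¹ * b⁻¹) * (b * a) := by group
        _ = b * a := by rw [h3, one_mul]
  · exact absurd ⟨6, by rw [h]⟩ hne
  · exact absurd ⟨12, by rw [h]⟩ hne
  · exact absurd ⟨30, by rw [h]⟩ hne
  · rcases hK with ⟨-, h⟩ | ⟨-, h⟩
    · exact absurd (even_of_subfield_card rfl hm hqm hK2 h) hne
    · exfalso
      apply hne
      rw [h]
      rcases Nat.even_or_odd (Nat.card K) with he | ho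
      · exact he.mul_right _
      · apply Even.mul_left
        have : Odd (Nat.card K ^ 2) := ho.pow
        obtain ⟨c, hc⟩ := this
        exact ⟨c, by omega⟩

theorem no_tr2_zero (h2 : (2 : F) ≠ 0) (H : Subgroup PSL2) (hodd : Odd (Nat.card H)) (X : SL2)
    (hX : pr F X ∈ H) : tr2 X ≠ 0 := by
  intro h
  have h4 := orderOf_pr_of_tr2_zero h2 h
  have h6 : orderOf (pr F X) ∣ Nat.card H := by
    have := orderOf_dvd_natCard (⟨_, hX⟩ : H)
    rwa [← Subgroup.orderOf_coe] at this
  rw [h4] at h6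
  exact (Nat.not_even_iff_odd.2 hodd) (even_iff_two_dvd.2 h6)

/-- odd characteristic: no non-trivial stabiliser of odd order -/
theorem not_bin_odd_order (p : ℕ) [Fact p.Prime] [CharP F p] (h2 : (2 : F) ≠ 0) (H : Subgroup PSL2)
    (hH : H ≠ ⊥) (hodd : Odd (Nat.card H)) : ¬ IsBin' H := by
  have hp := (Fact.out : p.Prime)
  rw [← isBin'_comap_iff (pr F) pr_surj H]
  set K := H.comap (pr F) with hK
  have hnegK : ∀ X ∈ K, negOne * X ∈ K := by
    intro X hX
    rw [hK, Subgroup.mem_comap] at hX ⊢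
    rw [map_mul, pr_negOne, one_mul]; exact hX
  rcases odd_cases p H hodd with ⟨hpH, hab⟩ | ⟨hpH, P, hP⟩
  · have habK := comap_abelian H hab hodd
    obtain ⟨h, hhH, hh1⟩ : ∃ k ∈ H, k ≠ 1 := by
      by_contra hcon
      push Not at hcon
      exact hH ((Subgroup.eq_bot_iff_forall H).2 hcon)
    obtain ⟨X, rfl⟩ := pr_surj h
    have hXK : X ∈ K := hhH
    have key : ∀ Y : SL2, pr F Y = pr F X → tr2 Y ≠ 2 := by
      intro Y hY htr
      have h1 := pow_char_of_tr2_two p htr
      have h3 : (pr F X) ^ p = 1 := by rw [← hY, ← map_pow, h1, map_one]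
      have h4 : orderOf (pr F X) ∣ p := orderOf_dvd_of_pow_eq_one h3
      have h5 : orderOf (pr F X) ∣ Nat.card H := by
        have := orderOf_dvd_natCard (⟨_, hhH⟩ : H)
        rwa [← Subgroup.orderOf_coe] at this
      rcases (Nat.dvd_prime hp).1 h4 with h | h
      · exact hh1 (orderOf_eq_one_iff.1 h)
      · rw [h] at h5; exact hpH h5
    have h4 : tr2 X ^ 2 ≠ 4 := by
      intro h
      have : (tr2 X - 2) * (tr2 X + 2) = 0 := by linear_combination h
      rcases mul_eq_zero.1 this with h | h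
      · exact key X rfl (sub_eq_zero.1 h)
      · apply key (negOne * X) (by rw [map_mul, pr_negOne, one_mul])
        rw [tr2_negOne_mul]
        linear_combination -h
    by_cases h1 : tr2 X = -1
    · apply not_bin_of_abelian K habK (hnegK X hXK)
      · rw [tr2_negOne_mul]
        intro h
        apply h4
        linear_combination h
      · rw [tr2_negOne_mul, h1]
        intro h
        apply h2
        linear_combination h
    · exact not_bin_of_abelian K habK hXK h4 h1
  · obtain ⟨x, hx⟩ := exists_conj_upper p P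
    rw [← isBin'_cj_iff x⁻¹ K]
    set K₁ := cj x⁻¹ K with hK₁
    have hmem : ∀ g, g ∈ K₁ ↔ pr F (x * g * x⁻¹) ∈ H := by
      intro g
      rw [hK₁, mem_cj, inv_inv, hK, Subgroup.mem_comap]
    have hB : ∀ k ∈ K₁, k 1 0 = 0 := by
      intro k hk
      have := hx _ (hP ((hmem k).1 hk))
      have e : x⁻¹ * (x * k * x⁻¹) * x = k := by group
      rwa [e] at this
    have hneg : negOne ∈ K₁ := by
      rw [hmem]
      simp [pr_negOne]
    obtain ⟨⟨h, hhH⟩, hord⟩ := exists_prime_orderOf_dvd_card' (G := H) p hpH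
    have hord' : orderOf h = p := by rw [← hord, ← Subgroup.orderOf_coe]
    obtain ⟨U, hU, hUtr⟩ := exists_lift_trace_two p h (by rw [← hord', pow_orderOf_eq_one])
    have hUtr' : tr2 U = 2 := by
      rw [Matrix.trace_fin_two] at hUtr
      exact hUtr
    have hprU : pr F U = h := hU
    set U₁ := x⁻¹ * U * x with hU₁
    have hU₁K : U₁ ∈ K₁ := by
      rw [hmem]
      have : x * U₁ * x⁻¹ = U := by rw [hU₁]; group
      rw [this, hprU]; exact hhH
    have hU₁tr : tr2 U₁ = 2 := by
      have := tr2_conj U x⁻¹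
      rw [inv_inv] at this
      rw [hU₁, this, hUtr']
    have h10 := hB _ hU₁K
    have hd := det_eq U₁
    have h00 : U₁ 0 0 = 1 := by
      simp only [tr2] at hU₁tr
      rw [h10] at hd
      have : (U₁ 0 0 - 1) ^ 2 = 0 := by grind
      exact sub_eq_zero.1 (pow_eq_zero_iff two_ne_zero |>.1 this)
    obtain ⟨b, hb⟩ := mem_Usub_iff.1 (⟨h10, h00⟩ : U₁ ∈ Usub F)
    have hb0 : b ≠ 0 := by
      rintro rfl
      rw [uu_zero] at hb
      have : U = 1 := by
        have e : U = x * U₁ * x⁻¹ := by rw [hU₁]; group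
        rw [e, hb]; group
      rw [this, map_one] at hprU
      rw [← hprU, orderOf_one] at hord'
      exact hp.one_lt.ne hord'
    apply not_bin_of_unip h2 K₁ hB hneg hb0 (hb ▸ hU₁K)
    intro k hk hk2
    have hk10 := hB k hk
    have hdk := det_eq k
    rw [hk10] at hdk
    apply no_tr2_zero h2 H hodd _ ((hmem k).1 hk)
    rw [tr2_conj]
    simp only [tr2]
    have hk0 : k 0 0 ≠ 0 := by
      intro h
      rw [h] at hdk
      simp at hdk
    have : k 0 0 * (k 0 0 + k 1 1) = 0 := by linear_combination hk2 + hdk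
    exact (mul_eq_zero.1 this).resolve_left hk0

end Cfsg.Agent.Lib.Helper41.Bin
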